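import Mathlib
import Cfsg.Agent.Lib.Helper81.CS3.NGDefs
import Cfsg.Agent.Lib.Helper71.CS3.Basics
import Cfsg.Agent.Lib.Helper24.CS3.Basics

set_option autoImplicit false

/-! # CS3 (S4284), part NG, package [SQ]: `m` is squarefree. -/

namespace Cfsg.Agent.Lib.Helper72.CS3

open Cfsg.Agent.Lib.Helper81.CS3

open scoped commutatorElement

universe u

theorem orderOf_conj72 {G : Type*} [Group G] (g x : G) : orderOf (g * x * g⁻¹) = orderOf x := by
  simpa using (MulAut.conj g).orderOf_eq x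

/-- In a non-abelian finite `s`-group `P` there is `y ∉ Z(P)` with `[y, P] ⊆ Z(P)` and
`y ^ s ∈ Z(P)`. -/
theorem exists_second_center {P : Type*} [Group P] [Finite P] {s : ℕ} [Fact s.Prime]
    (hP : IsPGroup s P) (hnc : Subgroup.center P ≠ ⊤) :
    ∃ y : P, y ∉ Subgroup.center P ∧ (∀ σ : P, y * σ * y⁻¹ * σ⁻¹ ∈ Subgroup.center P) ∧
      y ^ s ∈ Subgroup.center P := by
  have hQ : IsPGroup s (P ⧸ Subgroup.center P) := hP.to_quotient (Subgroup.center P)
  have : Nontrivial (P ⧸ Subgroup.center P) := by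
    by_contra h
    rw [not_nontrivial_iff_subsingleton] at h
    exact hnc (QuotientGroup.subgroup_eq_top_of_subsingleton _ h)
  have hcn := hQ.center_nontrivial
  obtain ⟨⟨c, hc⟩, hc1⟩ := exists_ne (1 : Subgroup.center (P ⧸ Subgroup.center P))
  have hc1' : c ≠ 1 := fun h => hc1 (Subtype.ext h)
  obtain ⟨k, hk⟩ := (IsPGroup.iff_orderOf.mp hQ) c
  have hk0 : k ≠ 0 := by
    rintro rfl
    rw [pow_zero, orderOf_eq_one_iff] at hk
    exact hc1' hk
  obtain ⟨k', rfl⟩ := Nat.exists_eq_succ_of_ne_zero hk0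
  have hc'cen : c ^ (s ^ k') ∈ Subgroup.center (P ⧸ Subgroup.center P) := Subgroup.pow_mem _ hc _
  have hc'1 : c ^ (s ^ k') ≠ 1 := by
    intro h
    have h1 := orderOf_dvd_of_pow_eq_one h
    rw [hk] at h1
    have h2 := (Nat.pow_dvd_pow_iff_le_right (Fact.out : s.Prime).one_lt).mp h1
    omega
  have hc's : (c ^ (s ^ k')) ^ s = 1 := by
    rw [← pow_mul, ← pow_succ, ← hk, pow_orderOf_eq_one]
  obtain ⟨y, hy⟩ := QuotientGroup.mk_surjective (c ^ (s ^ k'))
  refine ⟨y, ?_, ?_, ?_⟩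
  · intro hyc
    apply hc'1
    rw [← hy]
    exact (QuotientGroup.eq_one_iff y).mpr hyc
  · intro σ
    rw [← QuotientGroup.eq_one_iff]
    simp only [QuotientGroup.mk_mul, QuotientGroup.mk_inv, hy]
    have h1 := (Subgroup.mem_center_iff.mp hc'cen) (σ : P ⧸ Subgroup.center P)
    rw [← h1, mul_inv_cancel_right, mul_inv_cancel]
  · rw [← QuotientGroup.eq_one_iff, QuotientGroup.mk_pow, hy, hc's]

/-- With `y` as in `exists_second_center`, `s`-th powers and commutators centralize `y`. -/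
theorem commute_of_second_center {P : Type*} [Group P] {s : ℕ} (y : P)
    (h1 : ∀ σ : P, y * σ * y⁻¹ * σ⁻¹ ∈ Subgroup.center P) (h2 : y ^ s ∈ Subgroup.center P) :
    (∀ σ : P, Commute (σ ^ s) y) ∧ ∀ σ τ : P, Commute (σ * τ * σ⁻¹ * τ⁻¹) y := by
  let c : P →* Subgroup.center P :=
    { toFun := fun σ => ⟨y * σ * y⁻¹ * σ⁻¹, h1 σ⟩
      map_one' := by apply Subtype.ext; simp
      map_mul' := by
        intro σ τ
        apply Subtype.ext
        show y * (σ * τ) * y⁻¹ * (σ * τ)⁻¹ = (y * σ * y⁻¹ * σ⁻¹) * (y * τ * y⁻¹ * τ⁻¹)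
        have ht := (Subgroup.mem_center_iff.mp (h1 τ)) σ⁻¹
        calc y * (σ * τ) * y⁻¹ * (σ * τ)⁻¹
            = y * σ * y⁻¹ * ((y * τ * y⁻¹ * τ⁻¹) * σ⁻¹) := by group
          _ = y * σ * y⁻¹ * (σ⁻¹ * (y * τ * y⁻¹ * τ⁻¹)) := by rw [ht]
          _ = _ := by group }
  have hc : ∀ σ : P, ((c σ : Subgroup.center P) : P) = y * σ * y⁻¹ * σ⁻¹ := fun σ => rfl
  have hker : ∀ σ : P, c σ = 1 → Commute σ y := by
    intro σ h
    have h3 := congrArg Subtype.val h
    rw [hc] at h3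
    have h4 : y * σ * y⁻¹ = σ := mul_inv_eq_one.mp h3
    have h5 : y * σ = σ * y := mul_inv_eq_iff_eq_mul.mp h4
    exact h5.symm
  constructor
  · intro σ
    apply hker
    rw [map_pow]
    apply Subtype.ext
    rw [Subgroup.coe_pow, hc]
    have htc := h1 σ
    have e1 : σ * y⁻¹ * σ⁻¹ = y⁻¹ * (y * σ * y⁻¹ * σ⁻¹) := by group
    have e2 : (σ * y⁻¹ * σ⁻¹) ^ s = σ * (y⁻¹) ^ s * σ⁻¹ := conj_pow
    have e3 : (y⁻¹ * (y * σ * y⁻¹ * σ⁻¹)) ^ s = (y⁻¹) ^ s * (y * σ * y⁻¹ * σ⁻¹) ^ s := by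
      have hcomm : Commute y⁻¹ (y * σ * y⁻¹ * σ⁻¹) := Subgroup.mem_center_iff.mp htc y⁻¹
      exact hcomm.mul_pow s
    have e4 : σ * (y⁻¹) ^ s * σ⁻¹ = (y⁻¹) ^ s := by
      have hyc : (y⁻¹) ^ s ∈ Subgroup.center P := by rw [inv_pow]; exact inv_mem h2
      have h6 := (Subgroup.mem_center_iff.mp hyc) σ
      rw [h6, mul_inv_cancel_right]
    rw [e1, e3, e4] at e2
    exact mul_eq_left.mp e2
  · intro σ τ
    apply hker
    have h7 : σ * τ * σ⁻¹ * τ⁻¹ = ⁅σ, τ⁆ := (commutatorElement_def σ τ).symm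
    rw [h7, map_commutatorElement, commutatorElement_eq_one_iff_commute]
    exact Subtype.ext (Subgroup.mem_center_iff.mp (c τ).2 (c σ : P))

/-- [SQ] -/
theorem pkgSq (hStr : PkgStr.{u}) (hNC : PkgNC.{u}) : PkgSq.{u} := by
  intro G _ _ m n hyp hng s hs hsm hs2
  classical
  have : Fact s.Prime := ⟨hs⟩
  have hm0 : m ≠ 0 := by have := hyp.2.1; omega
  have hn0 : n ≠ 0 := by have := hyp.2.2.1; omega
  have ha2 : 2 ≤ m.factorization s := (hs.pow_dvd_iff_le_factorization hm0).mp hs2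
  obtain ⟨S⟩ : Nonempty (Sylow s G) := inferInstance
  set S' : Subgroup G := (S : Subgroup G) with hS'
  have hSp : IsPGroup s S' := S.isPGroup'
  have hcenS : Subgroup.center S' ≠ ⊤ := by
    intro htop
    apply Helper71.CS3.sylow_not_le_center hyp hsm S
    intro z hz
    apply Helper71.CS3.center_sylow_le hyp hsm S hz
    intro x hx
    have h1 : (⟨z, hz⟩ : S') ∈ Subgroup.center S' := by rw [htop]; trivial
    have h2 := (Subgroup.mem_center_iff.mp h1) ⟨x, hx⟩
    exact (congrArg Subtype.val h2).symm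
  obtain ⟨y', hy'nc, hy'c, hy's⟩ := exists_second_center hSp hcenS
  obtain ⟨hpow, hcomm⟩ := commute_of_second_center (s := s) y' hy'c hy's
  obtain ⟨y, hy⟩ : ∃ y : G, y = (y' : G) := ⟨_, rfl⟩
  have hyS : y ∈ S' := hy ▸ y'.2
  have hyncG : y ∉ Subgroup.center G := by
    intro hyc
    apply hy'nc
    rw [Subgroup.mem_center_iff]
    intro g
    apply Subtype.ext
    have := (Subgroup.mem_center_iff.mp hyc) (g : G)
    rw [hy] at this
    exact this
  have hzc : ∀ σ ∈ S', y * σ * y⁻¹ * σ⁻¹ ∈ Subgroup.center G := by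
    intro σ hσ
    have h1 := hy'c ⟨σ, hσ⟩
    apply Helper71.CS3.center_sylow_le hyp hsm S (z := y * σ * y⁻¹ * σ⁻¹)
    · exact S'.mul_mem (S'.mul_mem (S'.mul_mem hyS hσ) (S'.inv_mem hyS)) (S'.inv_mem hσ)
    · intro x hx
      have h2 := (Subgroup.mem_center_iff.mp h1) ⟨x, hx⟩
      have h3 := (congrArg Subtype.val h2).symm
      rw [hy]
      exact h3
  have hyord : ∃ k : ℕ, orderOf y = s ^ k := by
    obtain ⟨k, hk⟩ := (IsPGroup.iff_orderOf.mp hSp) y'
    exact ⟨k, by rw [hy, Subgroup.orderOf_coe, hk]⟩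
  have hPM : PM m s y := ⟨hs, hsm, hyord, hyncG⟩
  obtain ⟨hidx, Sy, Ay, hSy, hAy, hAcen, hcard, ⟨j, hj⟩, hAcop⟩ := hStr m n hyp hng s y hPM
  obtain ⟨u₀, hu₀c, hu₀o, hu₀nc⟩ := hNC m n hyp hng s y hPM
  -- conjugation by `σ ∈ S` preserves `C(y)`
  have hconjC : ∀ σ ∈ S', ∀ g : G, Commute g y → Commute (σ * g * σ⁻¹) y := by
    intro σ hσ g hg
    have hz := hzc σ⁻¹ (inv_mem hσ)
    rw [inv_inv] at hz
    have e1 : σ⁻¹ * y * σ = (y * σ⁻¹ * y⁻¹ * σ)⁻¹ * y := by group
    have hzi : (y * σ⁻¹ * y⁻¹ * σ)⁻¹ ∈ Subgroup.center G := inv_mem hz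
    have e2 : Commute g (σ⁻¹ * y * σ) := by
      rw [e1]
      have hc1 : Commute g (y * σ⁻¹ * y⁻¹ * σ)⁻¹ := Subgroup.mem_center_iff.mp hzi g
      exact hc1.mul_right hg
    have e3 : g * (σ⁻¹ * y * σ) = (σ⁻¹ * y * σ) * g := e2.eq
    show σ * g * σ⁻¹ * y = y * (σ * g * σ⁻¹)
    calc σ * g * σ⁻¹ * y = σ * (g * (σ⁻¹ * y * σ)) * σ⁻¹ := by group
      _ = σ * ((σ⁻¹ * y * σ) * g) * σ⁻¹ := by rw [e3]
      _ = _ := by group
  have hSyp : IsPGroup s Sy := IsPGroup.of_card hj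
  have hSyle : Sy ≤ S' := by
    have hnorm : S' ≤ Subgroup.normalizer (Sy : Set G) := by
      intro σ hσ
      rw [Subgroup.mem_normalizer_iff]
      intro h
      constructor
      · intro hh
        obtain ⟨hc, k, hk⟩ := (hSy h).mp hh
        exact (hSy _).mpr ⟨hconjC σ hσ h hc, k, by rw [orderOf_conj72, hk]⟩
      · intro hh
        obtain ⟨hc, k, hk⟩ := (hSy _).mp hh
        have h1 := hconjC σ⁻¹ (inv_mem hσ) _ hc
        have e : σ⁻¹ * (σ * h * σ⁻¹) * σ⁻¹⁻¹ = h := by group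
        rw [e] at h1
        refine (hSy h).mpr ⟨h1, k, ?_⟩
        rw [← hk, orderOf_conj72]
    have hQ : IsPGroup s (S' ⊔ Sy : Subgroup G) := hSp.to_sup_of_normal_right' hSyp hnorm
    have h2 := S.is_maximal' hQ le_sup_left
    have h3 : Sy ≤ S' ⊔ Sy := le_sup_right
    rw [h2] at h3
    exact h3
  have hnormA : ∀ σ ∈ S', ∀ v ∈ Ay, σ * v * σ⁻¹ ∈ Ay := by
    intro σ hσ v hv
    obtain ⟨hc, ho⟩ := (hAy v).mp hv
    exact (hAy _).mpr ⟨hconjC σ hσ v hc, by rw [orderOf_conj72]; exact ho⟩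
  have hAab : ∀ v ∈ Ay, ∀ w ∈ Ay, v * w = w * v := by
    intro v hv w hw
    exact (hAcen w hw v ((hAy v).mp hv).1).eq
  -- the `s`-part of `|G|`
  have hN : (Nat.card G).factorization s = j + m.factorization s := by
    have hsn : n.factorization s = 0 := by
      apply Nat.factorization_eq_zero_of_not_dvd
      intro hdn
      have h1 : s ∣ Nat.gcd m n := Nat.dvd_gcd hsm hdn
      rw [hyp.2.2.2.1] at h1
      exact hs.one_lt.ne' (Nat.dvd_one.mp h1)
    have hA0 : (Nat.card Ay).factorization s = 0 := by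
      apply Nat.factorization_eq_zero_of_not_dvd
      intro hd
      have h1 : s ∣ Nat.gcd (Nat.card Ay) s := Nat.dvd_gcd hd dvd_rfl
      rw [hAcop] at h1
      exact hs.one_lt.ne' (Nat.dvd_one.mp h1)
    rw [← hcard, hj, Nat.factorization_mul (mul_ne_zero (pow_ne_zero _ hs.ne_zero)
      Nat.card_pos.ne') (mul_ne_zero hm0 hn0),
      Nat.factorization_mul (pow_ne_zero _ hs.ne_zero) Nat.card_pos.ne',
      Nat.factorization_mul hm0 hn0]
    simp [Nat.Prime.factorization_pow hs, hA0, hsn]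
  -- key claim
  have KC : ∀ v : G, Commute v y → (orderOf v).Coprime s → v ∉ Subgroup.center G →
      ∀ σ ∈ S', Commute σ v → Commute σ y := by
    intro v hvc hvo hvnc σ hσ hσv
    have hTp : IsPGroup s (S' ⊓ Subgroup.centralizer ({v} : Set G) : Subgroup G) :=
      hSp.to_le inf_le_left
    obtain ⟨t, ht⟩ := IsPGroup.iff_card.mp hTp
    have hdvd : s ^ t ∣ Nat.card (Subgroup.centralizer ({v} : Set G)) := by
      rw [← ht]; exact Subgroup.card_dvd_of_le inf_le_right
    have hfc := Helper71.CS3.factorization_centralizer hyp hsm hvnc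
    have ht_le : t ≤ (Nat.card (Subgroup.centralizer ({v} : Set G))).factorization s :=
      (hs.pow_dvd_iff_le_factorization Nat.card_pos.ne').mp hdvd
    have htj : t ≤ j := by omega
    have hle : Sy ≤ S' ⊓ Subgroup.centralizer ({v} : Set G) := by
      intro h hh
      obtain ⟨hc, -⟩ := (hSy h).mp hh
      refine Subgroup.mem_inf.mpr ⟨hSyle hh, ?_⟩
      rw [Subgroup.mem_centralizer_iff]
      intro x hx
      rw [Set.mem_singleton_iff] at hx
      subst hx
      exact (hAcen x ((hAy x).mpr ⟨hvc, hvo⟩) h hc).eq.symm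
    have hcardle : Nat.card (S' ⊓ Subgroup.centralizer ({v} : Set G) : Subgroup G)
        ≤ Nat.card Sy := by
      rw [ht, hj]; exact Nat.pow_le_pow_right hs.pos htj
    have hEq := Subgroup.eq_of_le_of_card_ge hle hcardle
    have hσT : σ ∈ S' ⊓ Subgroup.centralizer ({v} : Set G) := by
      refine Subgroup.mem_inf.mpr ⟨hσ, ?_⟩
      rw [Subgroup.mem_centralizer_iff]
      intro x hx
      rw [Set.mem_singleton_iff] at hx
      subst hx
      exact hσv.eq.symm
    rw [← hEq] at hσT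
    exact ((hSy σ).mp hσT).1
  -- the action of `S` on `A_y`
  let _ : CommGroup Ay :=
    { (inferInstance : Group Ay) with
      mul_comm := fun a b => Subtype.ext (hAab a a.2 b b.2) }
  let φ : S' →* MulAut Ay :=
    { toFun := fun σ =>
        { toFun := fun v => ⟨(σ : G) * v * (σ : G)⁻¹, hnormA σ σ.2 v v.2⟩
          invFun := fun v => ⟨(σ : G)⁻¹ * v * (σ : G), by
            have h1 := hnormA (σ : G)⁻¹ (inv_mem σ.2) v v.2
            rwa [inv_inv] at h1⟩
          left_inv := fun v => by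
            apply Subtype.ext
            show (σ : G)⁻¹ * ((σ : G) * v * (σ : G)⁻¹) * (σ : G) = v
            group
          right_inv := fun v => by
            apply Subtype.ext
            show (σ : G) * ((σ : G)⁻¹ * v * (σ : G)) * (σ : G)⁻¹ = v
            group
          map_mul' := fun v w => by
            apply Subtype.ext
            show (σ : G) * ((v : G) * w) * (σ : G)⁻¹
              = ((σ : G) * v * (σ : G)⁻¹) * ((σ : G) * w * (σ : G)⁻¹)
            group }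
      map_one' := by
        apply MulEquiv.ext
        intro v
        apply Subtype.ext
        show ((1 : S') : G) * v * ((1 : S') : G)⁻¹ = v
        simp
      map_mul' := by
        intro σ τ
        apply MulEquiv.ext
        intro v
        apply Subtype.ext
        show ((σ * τ : S') : G) * v * ((σ * τ : S') : G)⁻¹
          = (σ : G) * ((τ : G) * v * (τ : G)⁻¹) * (σ : G)⁻¹
        simp only [Subgroup.coe_mul]
        group }
  have hφ : ∀ (σ : S') (v : Ay), ((φ σ v : Ay) : G) = (σ : G) * v * (σ : G)⁻¹ := fun σ v => rfl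
  have hker : ∀ σ : S', Commute (σ : G) y → φ σ = 1 := by
    intro σ hσ
    apply MulEquiv.ext
    intro v
    apply Subtype.ext
    rw [hφ]
    have h1 := (hAcen v v.2 σ hσ).eq
    show (σ : G) * v * (σ : G)⁻¹ = v
    rw [h1, mul_inv_cancel_right]
  have hexp : ∀ e : φ.range, e ^ s = 1 := by
    rintro ⟨e, σ, rfl⟩
    apply Subtype.ext
    show (φ σ) ^ s = 1
    rw [← map_pow]
    apply hker
    have h2 := congrArg Subtype.val (hpow σ).eq
    rw [hy]
    exact h2
  have hcommE : ∀ e e' : φ.range, e * e' = e' * e := by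
    rintro ⟨e, σ, rfl⟩ ⟨e', τ, rfl⟩
    apply Subtype.ext
    show φ σ * φ τ = φ τ * φ σ
    have h1 : φ (σ * τ * σ⁻¹ * τ⁻¹) = 1 := by
      apply hker
      have h2 := congrArg Subtype.val (hcomm σ τ).eq
      rw [hy]
      exact h2
    rw [map_mul, map_mul, map_mul, map_inv, map_inv] at h1
    have h3 := mul_inv_eq_one.mp h1
    exact mul_inv_eq_iff_eq_mul.mp h3
  have hu₀A : u₀ ∈ Ay := (hAy u₀).mpr ⟨hu₀c, hu₀o⟩
  have hV0 : (Subgroup.center G).subgroupOf Ay ≠ ⊤ := by
    intro htop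
    have h1 : (⟨u₀, hu₀A⟩ : Ay) ∈ (Subgroup.center G).subgroupOf Ay := by rw [htop]; trivial
    exact hu₀nc (Subgroup.mem_subgroupOf.mp h1)
  have hfix : ∀ e : φ.range, e ≠ 1 → ∀ v : Ay, e • v = v →
      v ∈ (Subgroup.center G).subgroupOf Ay := by
    rintro ⟨e, σ, rfl⟩ hne v hv
    rw [Subgroup.mem_subgroupOf]
    by_contra hvc
    apply hne
    apply Subtype.ext
    show φ σ = 1
    apply hker
    have hv' : (σ : G) * v * (σ : G)⁻¹ = v := congrArg Subtype.val hv
    have hσv : Commute (σ : G) (v : G) := mul_inv_eq_iff_eq_mul.mp hv'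
    exact KC v ((hAy v).mp v.2).1 ((hAy v).mp v.2).2 hvc σ σ.2 hσv
  have hsA : ¬ s ∣ Nat.card Ay := by
    intro hd
    have h1 : s ∣ Nat.gcd (Nat.card Ay) s := Nat.dvd_gcd hd dvd_rfl
    rw [hAcop] at h1
    exact hs.one_lt.ne' (Nat.dvd_one.mp h1)
  have hE : Nat.card φ.range ≤ s :=
    Helper24.CS3.fpf_abstract s hexp hcommE hsA _ hV0 hfix
  -- counting
  have hkerle : Nat.card φ.ker ≤ Nat.card Sy := by
    have hmem : ∀ σ : φ.ker, ((σ : S') : G) ∈ Sy := by
      intro σ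
      have h1 : φ (σ : S') = 1 := σ.2
      have h2 : ((φ (σ : S') ⟨u₀, hu₀A⟩ : Ay) : G) = u₀ := by rw [h1]; rfl
      rw [hφ] at h2
      have h3 : Commute ((σ : S') : G) u₀ := mul_inv_eq_iff_eq_mul.mp h2
      have h4 := KC u₀ hu₀c hu₀o hu₀nc _ (σ : S').2 h3
      obtain ⟨k, hk⟩ := (IsPGroup.iff_orderOf.mp hSp) (σ : S')
      exact (hSy _).mpr ⟨h4, k, by rw [Subgroup.orderOf_coe, hk]⟩
    apply Nat.card_le_card_of_injective (fun σ : φ.ker => (⟨((σ : S') : G), hmem σ⟩ : Sy))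
    intro σ τ h
    have h' : ((σ : S') : G) = ((τ : S') : G) := by
      have h0 := congrArg Subtype.val h
      exact h0
    exact Subtype.ext (Subtype.ext h')
  have hScard : Nat.card S' = s ^ (Nat.card G).factorization s := S.card_eq_multiplicity
  have hprod : Nat.card φ.ker * Nat.card φ.range = Nat.card S' := by
    rw [← Subgroup.index_ker, Subgroup.card_mul_index]
  have hle : s ^ (j + m.factorization s) ≤ s ^ (j + 1) := by
    rw [← hN, ← hScard, ← hprod, pow_succ, ← hj]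
    exact Nat.mul_le_mul hkerle hE
  have := (Nat.pow_le_pow_iff_right hs.one_lt).mp hle
  omega

end Cfsg.Agent.Lib.Helper72.CS3
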