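import Mathlib
import Cfsg.Agent.Lib.Helper41.CS3.GoodDefs
import Cfsg.Agent.Lib.Helper72.CS3.Sq

set_option autoImplicit false

/-! # CS3 (S4284), part GOOD, packages [EXY] and [MSA]. -/

namespace Cfsg.Agent.Lib.Helper72.CS3

open Cfsg.Agent.Lib.Helper41.CS3

universe u

theorem mem_Cn72 {G : Type*} [Group G] (x g : G) :
    g ∈ Subgroup.centralizer ({x} : Set G) ↔ x * g = g * x := by
  rw [Subgroup.mem_centralizer_iff]
  constructor
  · intro h; exact h x rfl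
  · intro h z hz
    rw [Set.mem_singleton_iff] at hz
    subst hz
    exact h

/-- [EXY] -/
theorem pkgExy : PkgExy.{u} := by
  intro G _ _ s hs S hSp hnab
  have : Fact s.Prime := ⟨hs⟩
  have hcen : Subgroup.center S ≠ ⊤ := by
    intro htop
    apply hnab
    intro x hx z hz
    have h1 : (⟨z, hz⟩ : S) ∈ Subgroup.center S := by rw [htop]; trivial
    have h2 := (Subgroup.mem_center_iff.mp h1) ⟨x, hx⟩
    exact congrArg Subtype.val h2
  obtain ⟨y', hy'nc, hy'c, hy's⟩ := exists_second_center hSp hcen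
  refine ⟨(y' : G), y'.2, ?_, ?_, ?_, ?_⟩
  · obtain ⟨k, hk⟩ := (IsPGroup.iff_orderOf.mp hSp) y'
    exact ⟨k, by rw [Subgroup.orderOf_coe, hk]⟩
  · rw [Subgroup.mem_center_iff] at hy'nc
    push Not at hy'nc
    obtain ⟨σ, hσ⟩ := hy'nc
    refine ⟨(σ : G), σ.2, ?_⟩
    intro h
    apply hσ
    apply Subtype.ext
    exact h.symm
  · intro σ hσ τ hτ
    have hc := hy'c ⟨σ, hσ⟩
    have hc' : (⟨σ, hσ⟩ : S) * y' * (⟨σ, hσ⟩ : S)⁻¹ * y'⁻¹ ∈ Subgroup.center S := by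
      have e : (⟨σ, hσ⟩ : S) * y' * (⟨σ, hσ⟩ : S)⁻¹ * y'⁻¹
          = (y' * (⟨σ, hσ⟩ : S) * y'⁻¹ * (⟨σ, hσ⟩ : S)⁻¹)⁻¹ := by group
      rw [e]
      exact inv_mem hc
    have h2 := (Subgroup.mem_center_iff.mp hc') ⟨τ, hτ⟩
    exact (congrArg Subtype.val h2).symm
  · intro τ hτ
    have h2 := (Subgroup.mem_center_iff.mp hy's) ⟨τ, hτ⟩
    exact (congrArg Subtype.val h2).symm

/-- [MSA] -/
theorem pkgMsa : PkgMsa.{u} := by
  intro G _ _ s hs S y hZ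
  obtain ⟨hmem, -, -, hcomm, hpow⟩ := hZ
  have h1 : ∀ σ : S, (⟨y, hmem⟩ : S) * σ * (⟨y, hmem⟩ : S)⁻¹ * σ⁻¹ ∈ Subgroup.center S := by
    intro σ
    have e : (⟨y, hmem⟩ : S) * σ * (⟨y, hmem⟩ : S)⁻¹ * σ⁻¹
        = (σ * (⟨y, hmem⟩ : S) * σ⁻¹ * (⟨y, hmem⟩ : S)⁻¹)⁻¹ := by group
    rw [e]
    apply inv_mem
    rw [Subgroup.mem_center_iff]
    intro τ
    apply Subtype.ext
    exact (hcomm σ σ.2 τ τ.2).symm
  have h2 : (⟨y, hmem⟩ : S) ^ s ∈ Subgroup.center S := by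
    rw [Subgroup.mem_center_iff]
    intro τ
    apply Subtype.ext
    exact (hpow τ τ.2).symm
  obtain ⟨hp, hc⟩ := commute_of_second_center (s := s) (⟨y, hmem⟩ : S) h1 h2
  constructor
  · intro σ hσ
    rw [mem_Cn72]
    have h3 := congrArg Subtype.val (hp ⟨σ, hσ⟩).eq
    exact h3.symm
  · intro σ hσ τ hτ
    rw [mem_Cn72]
    have h3 := congrArg Subtype.val (hc ⟨σ, hσ⟩ ⟨τ, hτ⟩).eq
    exact h3.symm

end Cfsg.Agent.Lib.Helper72.CS3
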