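import Mathlib
import Cfsg.Agent.Lib.Helper41.CS3.GoodDefs
import Cfsg.Agent.Lib.Helper24.CS3.Basics
import Cfsg.Agent.Lib.Helper72.CS3.GoodExy

set_option autoImplicit false

/-! # CS3 (S4284), part GOOD, package [MS]: the fixed-point-free argument. -/

namespace Cfsg.Agent.Lib.Helper72.CS3

open Cfsg.Agent.Lib.Helper41.CS3

universe u

/-- [MS] -/
theorem pkgMs : PkgMs.{u} := by
  intro G _ _ s s2 hs hs2 hne S y hAb hNrm hpow hcomm hCv hex hdvd
  obtain ⟨u, huC, huP, hunc⟩ := hex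
  classical
  have : Fact s.Prime := ⟨hs⟩
  have : Fact s2.Prime := ⟨hs2⟩
  -- the `s2`-elements of `C(y)`
  let V : Subgroup G :=
    { carrier := {v | v ∈ Cn y ∧ ∃ k : ℕ, v ^ (s2 ^ k) = 1}
      mul_mem' := by
        rintro v w ⟨hv, a, ha⟩ ⟨hw, b, hb⟩
        refine ⟨mul_mem hv hw, a + b, ?_⟩
        have hc : Commute v w := hAb v hv w hw
        rw [hc.mul_pow, pow_add, pow_mul, ha, one_pow, mul_comm (s2 ^ a), pow_mul, hb, one_pow,
          mul_one]
      one_mem' := ⟨one_mem _, 0, one_pow _⟩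
      inv_mem' := by
        rintro v ⟨hv, a, ha⟩
        exact ⟨inv_mem hv, a, by rw [inv_pow, ha, inv_one]⟩ }
  have hVmem : ∀ v : G, v ∈ V ↔ v ∈ Cn y ∧ ∃ k : ℕ, v ^ (s2 ^ k) = 1 := fun v => Iff.rfl
  have hVp : IsPGroup s2 V := by
    rintro ⟨v, hv⟩
    obtain ⟨k, hk⟩ := ((hVmem v).mp hv).2
    exact ⟨k, Subtype.ext (by rw [Subgroup.coe_pow]; exact hk)⟩
  have hsV : ¬ s ∣ Nat.card V := by
    obtain ⟨k, hk⟩ := IsPGroup.iff_card.mp hVp
    rw [hk]
    intro hd
    have h1 := hs.dvd_of_dvd_pow hd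
    exact hne ((Nat.prime_dvd_prime_iff_eq hs hs2).mp h1).symm
  have hnormV : ∀ σ ∈ S, ∀ v ∈ V, σ * v * σ⁻¹ ∈ V := by
    intro σ hσ v hv
    obtain ⟨hv1, k, hk⟩ := (hVmem v).mp hv
    exact (hVmem _).mpr ⟨hNrm σ hσ v hv1, k, by rw [conj_pow, hk, mul_one, mul_inv_cancel]⟩
  have huV : u ∈ V := by
    obtain ⟨k, hk⟩ := huP
    exact (hVmem u).mpr ⟨huC, k, by rw [← hk]; exact pow_orderOf_eq_one u⟩
  let _ : CommGroup V :=
    { (inferInstance : Group V) with
      mul_comm := fun a b => Subtype.ext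
        (hAb a ((hVmem a).mp a.2).1 b ((hVmem b).mp b.2).1) }
  let φ : S →* MulAut V :=
    { toFun := fun σ =>
        { toFun := fun v => ⟨(σ : G) * v * (σ : G)⁻¹, hnormV σ σ.2 v v.2⟩
          invFun := fun v => ⟨(σ : G)⁻¹ * v * (σ : G), by
            have h1 := hnormV (σ : G)⁻¹ (inv_mem σ.2) v v.2
            rwa [inv_inv] at h1⟩
          left_inv := fun v => by
            apply Subtype.ext
            show (σ : G)⁻¹ * ((σ : G) * v * (σ : G)⁻¹) * (σ : G) = v
            group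
          right_inv := fun v => by
            apply Subtype.ext
            show (σ : G) * ((σ : G)⁻¹ * v * (σ : G)) * (σ : G)⁻¹ = v
            group
          map_mul' := fun v w => by
            apply Subtype.ext
            show (σ : G) * ((v : G) * w) * (σ : G)⁻¹
              = ((σ : G) * v * (σ : G)⁻¹) * ((σ : G) * w * (σ : G)⁻¹)
            group }
      map_one' := by
        apply MulEquiv.ext
        intro v
        apply Subtype.ext
        show ((1 : S) : G) * v * ((1 : S) : G)⁻¹ = v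
        simp
      map_mul' := by
        intro σ τ
        apply MulEquiv.ext
        intro v
        apply Subtype.ext
        show ((σ * τ : S) : G) * v * ((σ * τ : S) : G)⁻¹
          = (σ : G) * ((τ : G) * v * (τ : G)⁻¹) * (σ : G)⁻¹
        simp only [Subgroup.coe_mul]
        group }
  have hφ : ∀ (σ : S) (v : V), ((φ σ v : V) : G) = (σ : G) * v * (σ : G)⁻¹ := fun σ v => rfl
  have hker : ∀ σ : S, (σ : G) ∈ Cn y → φ σ = 1 := by
    intro σ hσ
    apply MulEquiv.ext
    intro v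
    apply Subtype.ext
    rw [hφ]
    have h1 : (σ : G) * v = v * σ := hAb σ hσ v ((hVmem v).mp v.2).1
    show (σ : G) * v * (σ : G)⁻¹ = v
    rw [h1, mul_inv_cancel_right]
  have hexp : ∀ e : φ.range, e ^ s = 1 := by
    rintro ⟨e, σ, rfl⟩
    apply Subtype.ext
    show (φ σ) ^ s = 1
    rw [← map_pow]
    apply hker
    exact hpow σ σ.2
  have hcommE : ∀ e e' : φ.range, e * e' = e' * e := by
    rintro ⟨e, σ, rfl⟩ ⟨e', τ, rfl⟩
    apply Subtype.ext
    show φ σ * φ τ = φ τ * φ σ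
    have h1 : φ (σ * τ * σ⁻¹ * τ⁻¹) = 1 := by
      apply hker
      exact hcomm σ σ.2 τ τ.2
    rw [map_mul, map_mul, map_mul, map_inv, map_inv] at h1
    have h3 := mul_inv_eq_one.mp h1
    exact mul_inv_eq_iff_eq_mul.mp h3
  have hV0 : (Subgroup.center G).subgroupOf V ≠ ⊤ := by
    intro htop
    have h1 : (⟨u, huV⟩ : V) ∈ (Subgroup.center G).subgroupOf V := by rw [htop]; trivial
    exact hunc (Subgroup.mem_subgroupOf.mp h1)
  have hfixC : ∀ (σ : S) (v : V), (v : G) ∉ Subgroup.center G →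
      (σ : G) * v * (σ : G)⁻¹ = v → (σ : G) ∈ Cn y := by
    intro σ v hvc hv'
    have h1 : (σ : G) * v = v * σ := mul_inv_eq_iff_eq_mul.mp hv'
    have h2 : (σ : G) ∈ Cn (v : G) := (mem_Cn72 (v : G) (σ : G)).mpr h1.symm
    rw [hCv v ((hVmem v).mp v.2).1 hvc] at h2
    exact h2
  have hfix : ∀ e : φ.range, e ≠ 1 → ∀ v : V, e • v = v →
      v ∈ (Subgroup.center G).subgroupOf V := by
    rintro ⟨e, σ, rfl⟩ hne' v hv
    rw [Subgroup.mem_subgroupOf]
    by_contra hvc
    apply hne'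
    apply Subtype.ext
    show φ σ = 1
    apply hker
    have hv' : (σ : G) * v * (σ : G)⁻¹ = v := congrArg Subtype.val hv
    exact hfixC σ v hvc hv'
  have hE : Nat.card φ.range ≤ s :=
    Helper24.CS3.fpf_abstract s hexp hcommE hsV _ hV0 hfix
  -- counting
  have hkerle : φ.ker ≤ (Cn y).subgroupOf S := by
    intro σ hσ
    rw [Subgroup.mem_subgroupOf]
    have h1 : φ σ = 1 := hσ
    have h2 : ((φ σ ⟨u, huV⟩ : V) : G) = u := by rw [h1]; rfl
    rw [hφ] at h2
    exact hfixC σ ⟨u, huV⟩ hunc h2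
  have hd1 : (Cn y).relIndex S ∣ Nat.card φ.range := by
    rw [← Subgroup.index_ker]
    exact Subgroup.index_dvd_of_le hkerle
  have hd2 : s ^ 2 ∣ Nat.card φ.range := hdvd.trans hd1
  have hpos : 0 < Nat.card φ.range := Nat.card_pos
  have hle2 : s ^ 2 ≤ s := (Nat.le_of_dvd hpos hd2).trans hE
  have h2 := hs.two_le
  nlinarith

end Cfsg.Agent.Lib.Helper72.CS3
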