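import Mathlib
import Cfsg.Agent.Lib.Helper41.CS3.GoodDefs
import Cfsg.Agent.Lib.Helper71.CS3.Basics
import Cfsg.Agent.Lib.Helper72.CS3.GoodExy

set_option autoImplicit false

/-! # CS3 (S4284), part GOOD, packages [NRM] and [MSB]. -/

namespace Cfsg.Agent.Lib.Helper72.CS3

open Cfsg.Agent.Lib.Helper41.CS3 Cfsg.Agent.Lib.Helper81.CS3

universe u

/-- [NRM] -/
theorem pkgNrm : PkgNrm.{u} := by
  intro G _ _ m n hyp s hs hsm S y hZ
  have : Fact s.Prime := ⟨hs⟩
  obtain ⟨hmem, -, -, hcomm, -⟩ := hZ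
  intro σ hσ g hg
  rw [mem_Cn72] at hg ⊢
  have hσi : σ⁻¹ ∈ (S : Subgroup G) := inv_mem hσ
  have hc : σ⁻¹ * y * σ⁻¹⁻¹ * y⁻¹ ∈ Subgroup.center G := by
    apply Helper71.CS3.center_sylow_le hyp hsm S (z := σ⁻¹ * y * σ⁻¹⁻¹ * y⁻¹)
    · exact mul_mem (mul_mem (mul_mem hσi hmem) (inv_mem hσi)) (inv_mem hmem)
    · intro x hx
      exact hcomm σ⁻¹ hσi x hx
  rw [inv_inv] at hc
  have e1 : σ⁻¹ * y * σ = (σ⁻¹ * y * σ * y⁻¹) * y := by group
  have hc1 : Commute g (σ⁻¹ * y * σ * y⁻¹) := Subgroup.mem_center_iff.mp hc g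
  have hc2 : Commute g y := hg.symm
  have e3 : g * (σ⁻¹ * y * σ) = (σ⁻¹ * y * σ) * g := by
    have h4 := (hc1.mul_right hc2).eq
    rw [← e1] at h4
    exact h4
  calc y * (σ * g * σ⁻¹) = σ * ((σ⁻¹ * y * σ) * g) * σ⁻¹ := by group
    _ = σ * (g * (σ⁻¹ * y * σ)) * σ⁻¹ := by rw [e3]
    _ = _ := by group

/-- [MSB] -/
theorem pkgMsb : PkgMsb.{u} := by
  intro G _ _ m n s hs S y hix hs2
  have : Fact s.Prime := ⟨hs⟩
  obtain ⟨S', hS'⟩ : ∃ S' : Subgroup G, S' = (S : Subgroup G) := ⟨_, rfl⟩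
  rw [← hS']
  have hSp : IsPGroup s S' := hS' ▸ S.isPGroup'
  have hTp : IsPGroup s (Cn y ⊓ S' : Subgroup G) := hSp.to_le inf_le_right
  obtain ⟨e, he⟩ := IsPGroup.iff_card.mp hTp
  have hdvd : s ^ e ∣ Nat.card (Cn y) := by
    rw [← he]; exact Subgroup.card_dvd_of_le inf_le_left
  have hG : Nat.card (Cn y) * (m * n) = Nat.card G := by
    rw [← hix]; exact Subgroup.card_mul_index (Cn y)
  have hdvdG : s ^ (e + 2) ∣ Nat.card G := by
    rw [← hG, pow_add]
    exact Nat.mul_dvd_mul hdvd (hs2.mul_right n)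
  have hle : e + 2 ≤ (Nat.card G).factorization s :=
    (hs.pow_dvd_iff_le_factorization Nat.card_pos.ne').mp hdvdG
  have hScard : Nat.card S' = s ^ (Nat.card G).factorization s := by
    rw [hS']; exact S.card_eq_multiplicity
  have hrel : (Cn y).relIndex S' * Nat.card (Cn y ⊓ S' : Subgroup G) = Nat.card S' := by
    rw [← Subgroup.inf_relIndex_right]
    have h1 := Subgroup.relIndex_mul_index (inf_le_right : Cn y ⊓ S' ≤ S')
    have h2 := Subgroup.card_mul_index (Cn y ⊓ S' : Subgroup G)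
    have h3 := Subgroup.card_mul_index S'
    have hpos : 0 < S'.index := Nat.pos_of_ne_zero Subgroup.index_ne_zero_of_finite
    apply Nat.eq_of_mul_eq_mul_right hpos
    calc (Cn y ⊓ S').relIndex S' * Nat.card (Cn y ⊓ S' : Subgroup G) * S'.index
        = Nat.card (Cn y ⊓ S' : Subgroup G) * ((Cn y ⊓ S').relIndex S' * S'.index) := by ring
      _ = Nat.card (Cn y ⊓ S' : Subgroup G) * (Cn y ⊓ S' : Subgroup G).index := by rw [h1]
      _ = Nat.card G := h2
      _ = Nat.card S' * S'.index := h3.symm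
  rw [he, hScard] at hrel
  have hN : (Nat.card G).factorization s = ((Nat.card G).factorization s - e) + e := by omega
  rw [hN, pow_add] at hrel
  have hrel' := Nat.eq_of_mul_eq_mul_right (pow_pos hs.pos e) hrel
  rw [hrel']
  exact pow_dvd_pow s (by omega)

end Cfsg.Agent.Lib.Helper72.CS3
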