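import Mathlib
import Cfsg.Agent.Lib.Helper81.CS3.NGDefs
import Cfsg.Agent.Lib.Helper71.CS3.Basics

set_option autoImplicit false

/-! # CS3 (S4284), part NG, package [NC]: `A_b` is not central. -/

namespace Cfsg.Agent.Lib.Helper72.CS3

open Cfsg.Agent.Lib.Helper81.CS3

universe u

/-- [NC] -/
theorem pkgNC (hStr : PkgStr.{u}) (hMelt : PkgMelt.{u}) (hSyl : PkgSyl.{u}) : PkgNC.{u} := by
  intro G _ _ m n hyp hng s b hPM
  obtain ⟨hs, hsm, -, -⟩ := id hPM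
  have hm1 : 1 < m := hyp.2.1
  have hn1 : 1 < n := hyp.2.2.1
  obtain ⟨x, r, k, hr, hrm, hxo, hxi⟩ := hMelt m n hyp hng
  obtain ⟨b0, hPM0, hb0x⟩ := hSyl m n hyp s hs hsm x
  obtain ⟨-, Sb, Ab, -, hAb, -, hcard, ⟨j, hj⟩, hAcop⟩ := hStr m n hyp hng s b hPM
  obtain ⟨-, Sb0, Ab0, -, hAb0, -, hcard0, ⟨j0, hj0⟩, hAcop0⟩ := hStr m n hyp hng s b0 hPM0
  have hrs : r ≠ s := by
    rintro rfl
    exact hrm hsm
  have hxcop : (orderOf x).Coprime s := by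
    rw [hxo]
    exact Nat.Coprime.pow_left k ((Nat.coprime_primes hr hs).mpr hrs)
  have hxnc : x ∉ Subgroup.center G := by
    intro hxc
    have h1 := (Helper71.CS3.idx_eq_one_iff x).mpr hxc
    have h2 : idx x = 1 := h1
    omega
  have hxA0 : x ∈ Ab0 := (hAb0 x).mpr ⟨hb0x.symm, hxcop⟩
  by_contra hcon
  push Not at hcon
  have hle : Ab ≤ Ab0 := by
    intro u hu
    obtain ⟨hc, ho⟩ := (hAb u).mp hu
    have huc := hcon u hc ho
    exact (hAb0 u).mpr ⟨(Subgroup.mem_center_iff.mp huc b0).symm, ho⟩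
  have hxA : x ∉ Ab := by
    intro hx
    obtain ⟨hc, ho⟩ := (hAb x).mp hx
    exact hxnc (hcon x hc ho)
  have hmn : 0 < m * n := by positivity
  have e : s ^ j * Nat.card Ab = s ^ j0 * Nat.card Ab0 := by
    apply Nat.eq_of_mul_eq_mul_right hmn
    rw [← hj, ← hj0, hcard, hcard0]
  have h1 : Nat.card Ab0 ∣ Nat.card Ab := by
    have h2 : Nat.card Ab0 ∣ s ^ j * Nat.card Ab := ⟨s ^ j0, by rw [e]; ring⟩
    exact (Nat.Coprime.pow_right j hAcop0).dvd_of_dvd_mul_left h2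
  have h3 : Nat.card Ab0 ≤ Nat.card Ab := Nat.le_of_dvd Nat.card_pos h1
  have hEq := Subgroup.eq_of_le_of_card_ge hle h3
  rw [hEq] at hxA
  exact hxA hxA0

end Cfsg.Agent.Lib.Helper72.CS3
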